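import Cfsg.Prelude.Def_GeometricClasses
import Cfsg.Agent.S2119
import Cfsg.Agent.S0813

/-!
# S2499, `Ω^±_12(2)`: the residual class over the field with two elements (helper989)

* `res_hom` : a group in the residual class over `F_2` embeds in the automorphism group of its core;
* `l33_kill`, `a13_kill` : elements of order 11, 31, 33 and the cores `L_3(3)`, `A_13`.
-/

set_option autoImplicit false
set_option linter.unusedSectionVars false

namespace Cfsg.Agent.H989.Cov

open Cfsg Cfsg.Geo
open scoped MatrixGroups Matrix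

variable {ι : Type} [Fintype ι] [DecidableEq ι] {F : Type} [Field F] [Fintype F]

theorem scalars_bot (hF : Fintype.card F = 2) : scalars ι F = ⊥ := by
  classical
  rw [eq_bot_iff]
  intro z hz
  obtain ⟨c, hc⟩ := (mem_scalars_iff z).1 hz
  have h1 : Fintype.card Fˣ = 1 := by rw [Fintype.card_units, hF]
  have h2 : c = 1 := (Fintype.card_eq_one_iff_nonempty_unique.1 h1).some.toInhabited.default.casesOn
    (motive := fun _ => c = 1) (fun _ _ _ _ => by
      have := Fintype.card_le_one_iff_subsingleton.1 h1.le
      exact Subsingleton.elim _ _)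
  rw [Subgroup.mem_bot]
  apply Units.ext
  rw [hc, h2, Units.val_one, one_smul, Units.val_one]

/-- over the field with two elements the residual group embeds in the automorphism group of the core -/
theorem res_hom (hF : Fintype.card F = 2) {H P : Subgroup (GL ι F)} (hc : IsResidualCore H P) {T : Type} [Group T]
    (e : (P ⧸ (scalars ι F).subgroupOf P) ≃* T) : ∃ f : H →* MulAut T, Function.Injective f := by
  have hbot := scalars_bot (ι := ι) hF
  have h0 : (scalars ι F).subgroupOf P = ⊥ := by rw [hbot, Subgroup.bot_subgroupOf]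
  have e1 : P ≃* T := ((QuotientGroup.quotientBot (G := P)).symm.trans
    (QuotientGroup.quotientMulEquivOfEq h0.symm)).trans e
  let f0 : H →* MulAut P :=
    { toFun := fun h =>
        { toFun := fun x => ⟨h * x * (h : GL ι F)⁻¹, hc.normal h h.2 x x.2⟩
          invFun := fun x => ⟨(h : GL ι F)⁻¹ * x * h, by
            have := hc.normal _ (H.inv_mem h.2) x x.2
            rwa [inv_inv] at this⟩
          left_inv := fun x => by
            apply Subtype.ext
            change (h : GL ι F)⁻¹ * (h * x * (h : GL ι F)⁻¹) * h = x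
            group
          right_inv := fun x => by
            apply Subtype.ext
            change (h : GL ι F) * ((h : GL ι F)⁻¹ * x * h) * (h : GL ι F)⁻¹ = x
            group
          map_mul' := fun x y => by
            apply Subtype.ext
            change (h : GL ι F) * (x * y) * (h : GL ι F)⁻¹ = (h * x * (h : GL ι F)⁻¹) * (h * y * (h : GL ι F)⁻¹)
            group }
      map_one' := by
        apply MulEquiv.ext
        intro x
        apply Subtype.ext
        change (1 : GL ι F) * x * (1 : GL ι F)⁻¹ = x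
        group
      map_mul' := fun g h => by
        apply MulEquiv.ext
        intro x
        apply Subtype.ext
        change (g * h : GL ι F) * x * (g * h : GL ι F)⁻¹ = g * (h * x * (h : GL ι F)⁻¹) * (g : GL ι F)⁻¹
        group }
  have hf0 : Function.Injective f0 := by
    rw [injective_iff_map_eq_one]
    intro h hh
    have h1 : (h : GL ι F) ∈ scalars ι F := by
      apply hc.centralizer_scalar h h.2
      intro x hx
      have h2 := congrArg (fun f : MulAut P => ((f ⟨x, hx⟩ : P) : GL ι F)) hh
      have h3 : (h : GL ι F) * x * (h : GL ι F)⁻¹ = x := h2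
      rw [h3, mul_inv_cancel]
      exact one_mem _
    rw [hbot, Subgroup.mem_bot] at h1
    exact Subtype.ext h1
  refine ⟨(MulAut.congr e1).toMonoidHom.comp f0, ?_⟩
  exact (MulAut.congr e1).injective.comp hf0

/-- the order of an element of the residual group -/
theorem res_order (hF : Fintype.card F = 2) {H P : Subgroup (GL ι F)} (hc : IsResidualCore H P) {T : Type} [Group T]
    (e : (P ⧸ (scalars ι F).subgroupOf P) ≃* T) {x : GL ι F} (hx : x ∈ H) : ∃ y : MulAut T, orderOf y = orderOf x := by
  obtain ⟨f, hf⟩ := res_hom hF hc e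
  refine ⟨f ⟨x, hx⟩, ?_⟩
  rw [orderOf_injective f hf, Subgroup.orderOf_mk]

theorem card_aut_l33 : Nat.card (MulAut (Matrix.ProjectiveSpecialLinearGroup (Fin 3) (ZMod 3))) ∣ 22464 := by
  have : Fact (Nat.Prime 3) := ⟨Nat.prime_three⟩
  rw [S0813.result 3 1 le_rfl (by rw [ZMod.card, pow_one]) 3 (by norm_num) (fun h => absurd h (by norm_num)),
    if_neg (by norm_num), mul_one]
  have h1 : Nat.card (Matrix.ProjGenLinGroup (Fin 3) (ZMod 3)) ∣ 11232 := by
    have h2 : Nat.card (GL (Fin 3) (ZMod 3)) = 11232 := by
      rw [Matrix.card_GL_field]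
      simp [Fin.prod_univ_three, ZMod.card]
    rw [← h2]
    exact Subgroup.card_quotient_dvd_card _
  exact mul_dvd_mul_left 2 h1

theorem l33_kill (hF : Fintype.card F = 2) {H P : Subgroup (GL ι F)} (hc : IsResidualCore H P)
    (e : (P ⧸ (scalars ι F).subgroupOf P) ≃* Matrix.ProjectiveSpecialLinearGroup (Fin 3) (ZMod 3)) {x : GL ι F}
    (hx : x ∈ H) (h : orderOf x = 11 ∨ orderOf x = 31) : False := by
  obtain ⟨y, hy⟩ := res_order hF hc e hx
  have h1 := (orderOf_dvd_natCard y).trans card_aut_l33
  rw [hy] at h1
  rcases h with h | h <;> rw [h] at h1 <;> norm_num at h1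

/-- no permutation of 13 letters has order 33 -/
theorem perm_33 (σ : Equiv.Perm (Fin 13)) : orderOf σ ≠ 33 := by
  intro h
  have h1 : 11 ∣ σ.cycleType.lcm := by rw [Equiv.Perm.lcm_cycleType, h]; norm_num
  have h2 : 3 ∣ σ.cycleType.lcm := by rw [Equiv.Perm.lcm_cycleType, h]; norm_num
  have key : ∀ (s : Multiset ℕ) (p : ℕ), p.Prime → p ∣ s.lcm → ∃ a ∈ s, p ∣ a := by
    intro s p hp
    induction s using Multiset.induction_on with
    | empty => intro h; rw [Multiset.lcm_zero] at h; exact absurd (Nat.dvd_one.1 h) hp.one_lt.ne'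
    | cons a s ih =>
      intro h
      rw [Multiset.lcm_cons] at h
      rcases (Nat.Prime.dvd_mul hp).1 (h.trans (Nat.lcm_dvd_mul _ _)) with h | h
      · exact ⟨a, Multiset.mem_cons_self _ _, h⟩
      · obtain ⟨b, hb, hd⟩ := ih h
        exact ⟨b, Multiset.mem_cons_of_mem hb, hd⟩
  obtain ⟨a, ha, had⟩ := key _ 11 (by norm_num) h1
  obtain ⟨b, hb, hbd⟩ := key _ 3 (by norm_num) h2
  have hsum : σ.cycleType.sum ≤ 13 := by
    rw [Equiv.Perm.sum_cycleType]
    exact (Finset.card_le_univ _).trans (by rw [Fintype.card_fin])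
  have ha2 := Equiv.Perm.two_le_of_mem_cycleType ha
  have hb2 := Equiv.Perm.two_le_of_mem_cycleType hb
  have ha13 : a ≤ 13 := (Multiset.le_sum_of_mem ha).trans hsum
  have ha11 : a = 11 := by omega
  have hne : b ≠ a := by
    rintro rfl
    omega
  obtain ⟨s, hs⟩ := Multiset.exists_cons_of_mem ha
  rw [hs, Multiset.mem_cons] at hb
  have hb' := hb.resolve_left hne
  have h3 := Multiset.le_sum_of_mem hb'
  rw [hs, Multiset.sum_cons] at hsum
  omega

theorem a13_kill (hF : Fintype.card F = 2) {H P : Subgroup (GL ι F)} (hc : IsResidualCore H P)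
    (e : (P ⧸ (scalars ι F).subgroupOf P) ≃* alternatingGroup (Fin 13)) {x : GL ι F}
    (hx : x ∈ H) (h : orderOf x = 31 ∨ orderOf x = 33) : False := by
  obtain ⟨y, hy⟩ := res_order hF hc e hx
  obtain ⟨σ, rfl⟩ := (S2119.result 13 (by norm_num) (by norm_num)).2 y
  rw [orderOf_injective _ (S2119.result 13 (by norm_num) (by norm_num)).1] at hy
  rcases h with h | h
  · have h1 := orderOf_dvd_natCard σ
    rw [hy, h, Nat.card_perm, Nat.card_fin, (by norm_num : Nat.Prime 31).dvd_factorial] at h1
    omega
  · exact perm_33 σ (hy.trans h)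

end Cfsg.Agent.H989.Cov
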